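import Mathlib
import Cfsg.Agent.H181.OctRow
import Cfsg.Agent.H181.OctPerf

/-!
# `G₂(q)`, `p = 3`, `9 ∤ q² - 1`: no subgroup of order `9` of `S` is `N(S)`-invariant (helper181)
-/

set_option autoImplicit false

namespace Cfsg.Agent.H181.OctHerm

open Cfsg.Lie QuadraticAlgebra Subgroup

/-- **criterion** : no `N(S)`-invariant subgroup of order `p²` in a group `S` of order `p³`. -/
theorem not_two_of_six {p : ℕ} [hp : Fact p.Prime] {G : Type*} [Group G] [Finite G] {S : Subgroup G}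
    (hS : Nat.card S = p ^ 3) {x y c : G} (hx : x ∈ S) (hy : y ∈ S) (hxp : x ^ p = 1)
    (hc : c ∈ normalizer (S : Set G)) (h0 : c * x * c⁻¹ * x ≠ x * (c * x * c⁻¹))
    (h1 : ∀ i < p, c * (x ^ i * y) * c⁻¹ * (x ^ i * y) ≠ (x ^ i * y) * (c * (x ^ i * y) * c⁻¹))
    {T : Subgroup G} (hTS : T ≤ S) (hT : ∀ n ∈ normalizer (S : Set G), ∀ t ∈ T, n * t * n⁻¹ ∈ T) :
    Nat.card T ≠ p ^ 2 := by
  intro hTc
  have hcomm : ∀ a ∈ T, ∀ b ∈ T, a * b = b * a := fun a ha b hb =>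
    congrArg Subtype.val ((IsPGroup.isMulCommutative_of_card_eq_prime_sq hTc).1.1 ⟨a, ha⟩ ⟨b, hb⟩)
  have hcT : ∀ t ∈ T, c * t * c⁻¹ ∈ T := hT c hc
  have hxT : x ∉ T := fun h => h0 (hcomm _ (hcT x h) _ h)
  let T' : Subgroup S := T.subgroupOf S
  have hn : T'.Normal := by
    refine ⟨fun t ht s => ?_⟩
    exact hT (s : G) (le_normalizer s.2) _ ht
  have hT'c : Nat.card T' = p ^ 2 := by
    rw [← hTc]; exact Nat.card_congr (Subgroup.subgroupOfEquivOfLe hTS).toEquiv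
  have hq : Nat.card (S ⧸ T') = p := by
    have h2 := Subgroup.card_eq_card_quotient_mul_card_subgroup T'
    rw [hT'c, hS] at h2
    have h3 : p ^ 3 = p * p ^ 2 := by ring
    rw [h3] at h2
    exact (Nat.eq_of_mul_eq_mul_right (pow_pos hp.out.pos 2) h2).symm
  let X : S ⧸ T' := QuotientGroup.mk ⟨x, hx⟩
  let Y : S ⧸ T' := QuotientGroup.mk ⟨y, hy⟩
  have hX : X ≠ 1 := by
    intro h
    have h2 : (⟨x, hx⟩ : S) ∈ T' := (QuotientGroup.eq_one_iff _).1 h
    exact hxT h2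
  have hYX : Y⁻¹ ∈ zpowers X := by
    have h2 : zpowers X = ⊤ := by
      refine Subgroup.eq_top_of_card_eq _ ?_
      rw [hq]
      have h3 : Nat.card (zpowers X) ∣ p := (Subgroup.card_subgroup_dvd_card _).trans hq.dvd
      rcases (Nat.dvd_prime hp.out).1 h3 with h4 | h4
      · rw [Subgroup.card_eq_one, zpowers_eq_bot] at h4
        exact absurd h4 hX
      · exact h4
    rw [h2]; exact mem_top _
  obtain ⟨k, hk⟩ := mem_zpowers_iff.1 hYX
  obtain ⟨i, hi, hik⟩ : ∃ i < p, X ^ i = Y⁻¹ := by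
    refine ⟨(k % p).toNat, ?_, ?_⟩
    · have h2 := Int.emod_lt_of_pos k (by exact_mod_cast hp.out.pos : (0 : ℤ) < p)
      have h3 := Int.emod_nonneg k (by exact_mod_cast hp.out.ne_zero : (p : ℤ) ≠ 0)
      omega
    · have h3 := Int.emod_nonneg k (by exact_mod_cast hp.out.ne_zero : (p : ℤ) ≠ 0)
      have hXp : X ^ p = 1 := by
        rw [← QuotientGroup.mk_pow, QuotientGroup.eq_one_iff]
        show ((⟨x, hx⟩ : S) ^ p : S).1 ∈ T
        rw [SubmonoidClass.coe_pow, hxp]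
        exact one_mem T
      rw [← zpow_natCast, Int.toNat_of_nonneg h3, ← hk]
      conv_rhs => rw [← Int.emod_add_mul_ediv k p, zpow_add, zpow_mul, zpow_natCast, hXp, one_zpow, mul_one]
  have hmem : x ^ i * y ∈ T := by
    have h2 : (QuotientGroup.mk (⟨x, hx⟩ ^ i * ⟨y, hy⟩ : S) : S ⧸ T') = 1 := by
      rw [QuotientGroup.mk_mul, QuotientGroup.mk_pow]
      show X ^ i * Y = 1
      rw [hik, inv_mul_cancel]
    have h3 := (QuotientGroup.eq_one_iff _).1 h2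
    exact h3
  exact h1 i hi (hcomm _ (hcT _ hmem) _ hmem)

/-- the six conditions from `c x c⁻¹ = y`, `c y c⁻¹ = x⁻¹` -/
theorem six {G : Type*} [Group G] {x y c : G} (hx : x ^ 3 = 1) (hy : y ^ 3 = 1) (h1 : c * x * c⁻¹ = y)
    (h2 : c * y * c⁻¹ = x⁻¹) (hne : y * x ≠ x * y) :
    c * x * c⁻¹ * x ≠ x * (c * x * c⁻¹) ∧
      ∀ i < 3, c * (x ^ i * y) * c⁻¹ * (x ^ i * y) ≠ (x ^ i * y) * (c * (x ^ i * y) * c⁻¹) := by
  have key : ∀ i : ℕ, c * (x ^ i * y) * c⁻¹ = y ^ i * x⁻¹ := by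
    intro i
    rw [← h2, ← h1, conj_pow]
    group
  refine ⟨by rw [h1]; exact hne, fun i hi h => ?_⟩
  rw [key] at h
  have hc : ¬ Commute x y := fun h => hne h.eq.symm
  have hi3 : i = 0 ∨ i = 1 ∨ i = 2 := by omega
  rcases hi3 with rfl | rfl | rfl
  · rw [pow_zero, pow_zero, one_mul, one_mul] at h
    exact hc ((Commute.inv_left_iff).1 h)
  · rw [pow_one, pow_one] at h
    have h3 : y * y = x * y * y * x⁻¹ := by
      calc y * y = y * x⁻¹ * (x * y) := by group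
        _ = _ := by rw [h]; group
    have h4 : Commute x (y * y) := by
      rw [Commute, SemiconjBy]
      calc x * (y * y) = (x * y * y * x⁻¹) * x := by group
        _ = y * y * x := by rw [← h3]
    have h5 : Commute x (y * y * (y * y)) := h4.mul_right h4
    have h6 : y * y * (y * y) = y := by
      rw [show y * y * (y * y) = y ^ 3 * y by rw [pow_succ, pow_two]; group, hy, one_mul]
    rw [h6] at h5
    exact hc h5
  · have h3 : y ^ 2 * x * y = x := by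
      calc y ^ 2 * x * y = y ^ 2 * x⁻¹ * (x ^ 2 * y) := by rw [pow_two x]; group
        _ = x ^ 2 * y * (y ^ 2 * x⁻¹) := h
        _ = x ^ 2 * y ^ 3 * x⁻¹ := by rw [pow_succ y 2, pow_two y]; group
        _ = x := by rw [hy, mul_one, pow_two]; group
    apply hc
    rw [Commute, SemiconjBy]
    calc x * y = y ^ 3 * x * y := by rw [hy, one_mul]
      _ = y * (y ^ 2 * x * y) := by rw [pow_succ y 2, pow_two y]; group
      _ = y * x := by rw [h3]

variable {F : Type*} [Field F]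

theorem fou_cyc (h3 : (3 : F) ≠ 0) : tt F * fou h3 * cyc = fou h3 := by
  apply Subtype.ext
  change Matrix.diagonal _ * (_ : Matrix (Fin 3) (Fin 3) (LL F)) * (_ : Matrix (Fin 3) (Fin 3) (LL F)) = _
  ext1 i j
  fin_cases i <;> fin_cases j <;> simp [fou, cyc, omU, Matrix.mul_apply, Fin.sum_univ_three] <;>
    (ext <;> simp [om]) <;> try ring

/-- the Fourier matrix as an element of `SU F` -/
def f0 (h3 : (3 : F) ≠ 0) : SU F := ⟨fou h3, fou_mem h3⟩

theorem f0_t0 (h3 : (3 : F) ≠ 0) : f0 h3 * t0 F * (f0 h3)⁻¹ = c0 F := by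
  rw [mul_inv_eq_iff_eq_mul]
  exact Subtype.ext (fou_tt h3)

theorem f0_c0 (h3 : (3 : F) ≠ 0) : f0 h3 * c0 F * (f0 h3)⁻¹ = (t0 F)⁻¹ := by
  rw [mul_inv_eq_iff_eq_mul, eq_inv_mul_iff_mul_eq, ← mul_assoc]
  exact Subtype.ext (fou_cyc h3)

theorem t0_cube : t0 F ^ 3 = 1 := by
  apply Subtype.ext
  rw [pow_succ, pow_two]
  change dg 1 omU (omU * omU) * dg 1 omU (omU * omU) * dg 1 omU (omU * omU) = (1 : U3 F)
  rw [dg_mul, dg_mul, one_mul, one_mul, omU_cube, cube_mul, omU_cube, one_mul, dg_one]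

theorem c0_cube' : c0 F ^ 3 = 1 := by rw [pow_succ, pow_two, c0_cube]

theorem c0_t0_ne : c0 F * t0 F ≠ t0 F * c0 F := by
  intro h
  have h1 : cyc * tt F = tt F * cyc := congrArg Subtype.val h
  rw [tt, cyc_dg] at h1
  have h2 := (dg_inj (mul_right_cancel h1)).1
  have h3 : (omU : unitary (LL F)) = 1 := by
    have h4 := omU_cube (F := F)
    rwa [h2, one_mul] at h4
  exact om_ne_one (congrArg Subtype.val h3)

theorem mem_DD_nine (h3 : (3 : F) ≠ 0) [Finite F] (h9 : ¬ 9 ∣ Nat.card F ^ 2 - 1) {d : SU F} (hd : d ∈ DD F) :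
    ∃ a j : ℕ, d = zz F ^ a * t0 F ^ j := by
  obtain ⟨x, y, w, hx, hy, hw, h1, h2⟩ := mem_DD.1 hd
  have hx3 := cube_of_not_nine h3 h9 hx
  have hu : y * x⁻¹ ∈ P3 F := mul_mem hy (inv_mem hx)
  have hu3 := cube_of_not_nine h3 h9 hu
  have hw' : w = x * (y * x⁻¹)⁻¹ := by
    rw [eq_mul_inv_iff_mul_eq]
    calc w * (y * x⁻¹) = x * y * w * (x⁻¹ * x⁻¹) := by
          rw [show x * y * w * (x⁻¹ * x⁻¹) = (w * (y * x⁻¹)) * (x * x⁻¹) by ac_rfl, mul_inv_cancel, mul_one]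
      _ = x⁻¹ * x⁻¹ := by rw [h1, one_mul]
      _ = x := by
        rw [← mul_inv_rev, inv_eq_iff_mul_eq_one, hx3]
  have hy' : y = x * (y * x⁻¹) := by rw [mul_comm y, mul_inv_cancel_left]
  have ha : ∃ a : ℕ, dg x x x = ((zz F ^ a : SU F) : U3 F) := by
    rcases cube_root h3 hx3 with h | h | h
    · exact ⟨0, by rw [h, pow_zero, dg_one]; rfl⟩
    · exact ⟨1, by rw [h, pow_one]; rfl⟩
    · exact ⟨2, by rw [h, pow_two, ← dg_mul]; rfl⟩
  have hb : ∃ j : ℕ, dg 1 (y * x⁻¹) (y * x⁻¹)⁻¹ = ((t0 F ^ j : SU F) : U3 F) := by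
    rcases cube_root h3 hu3 with h | h | h
    · exact ⟨0, by rw [h, pow_zero, inv_one, dg_one]; rfl⟩
    · refine ⟨1, ?_⟩
      rw [h, pow_one]
      change _ = tt F
      rw [tt]
      congr 1
      rw [inv_eq_iff_mul_eq_one, ← mul_assoc, omU_cube]
    · refine ⟨2, ?_⟩
      rw [h, pow_two]
      change _ = tt F * tt F
      rw [tt, dg_mul, one_mul]
      congr 1
      rw [inv_eq_iff_mul_eq_one]
      rw [show (omU : unitary (LL F)) * omU * (omU * omU * (omU * omU)) = (omU * omU * omU) * (omU * omU * omU) by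
        simp only [mul_assoc], omU_cube, one_mul]
  obtain ⟨a, ha⟩ := ha
  obtain ⟨j, hj⟩ := hb
  refine ⟨a, j, Subtype.ext ?_⟩
  rw [Subgroup.coe_mul, ← ha, ← hj, dg_mul, mul_one, ← hy', ← hw', h2]

theorem f0_normalizer (h3 : (3 : F) ≠ 0) [Finite F] (h9 : ¬ 9 ∣ Nat.card F ^ 2 - 1) {s : SU F} (hs : s ∈ SS F) :
    f0 h3 * s * (f0 h3)⁻¹ ∈ SS F := by
  have key : SS F ≤ (SS F).comap (MulAut.conj (f0 h3)).toMonoidHom := by
    refine sup_le ?_ ?_
    · rw [Subgroup.zpowers_le, mem_comap]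
      change f0 h3 * c0 F * (f0 h3)⁻¹ ∈ SS F
      rw [f0_c0]
      exact inv_mem (DD_le t0_mem)
    · intro d hd
      obtain ⟨a, j, rfl⟩ := mem_DD_nine h3 h9 hd
      rw [mem_comap]
      change f0 h3 * (zz F ^ a * t0 F ^ j) * (f0 h3)⁻¹ ∈ SS F
      have h1 : f0 h3 * (zz F ^ a * t0 F ^ j) * (f0 h3)⁻¹ = zz F ^ a * c0 F ^ j := by
        have h2 : Commute (f0 h3) (zz F ^ a) := (show Commute (f0 h3) (zz F) from zz_comm _).pow_right a
        rw [← mul_assoc, h2.eq, mul_assoc, mul_assoc, ← f0_t0 h3, conj_pow]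
        group
      rw [h1]
      exact mul_mem (pow_mem (DD_le zz_mem_DD) _) (pow_mem c0_mem _)
  exact key hs

/-- **`9 ∤ q² - 1`** : no subgroup of order `9` of a Sylow 3-subgroup `S` of `G₂(q)` is `N(S)`-invariant. -/
theorem noTwo [Finite F] {G : Type*} [Group G] [Finite G] (h3 : (3 : F) ≠ 0) (h9 : ¬ 9 ∣ Nat.card F ^ 2 - 1)
    (e : G ≃* Cfsg.Lie.G2 F) : H792.SpCube.NoTwo 3 G := by
  have : Fact (Nat.Prime 3) := ⟨Nat.prime_three⟩
  intro S T hTS hT
  obtain ⟨κ, hκ, φ, hφ⟩ := exists_phi h3 e S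
  let ψ : SU F →* G := φ.symm.toMonoidHom.comp (rho κ)
  have hS : (S : Subgroup G) = (SS F).map ψ := by
    apply map_injective φ
    rw [hφ, Subgroup.map_map]
    congr 1
    ext1 x
    exact (φ.apply_symm_apply _).symm
  have hψ : Function.Injective ψ := φ.symm.injective.comp (rho_injective κ)
  have hc : ψ (f0 h3) ∈ normalizer ((S : Subgroup G) : Set G) := by
    rw [mem_normalizer_iff_map_conj_eq]
    refine Subgroup.eq_of_le_of_card_ge ?_ (Subgroup.card_map_of_injective (MulAut.conj _).injective).ge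
    rw [hS]
    rintro _ ⟨_, ⟨s, hs, rfl⟩, rfl⟩
    refine ⟨f0 h3 * s * (f0 h3)⁻¹, f0_normalizer h3 h9 hs, ?_⟩
    rw [map_mul, map_mul, map_inv]
    rfl
  have h1 : ψ (f0 h3) * ψ (t0 F) * (ψ (f0 h3))⁻¹ = ψ (c0 F) := by
    rw [← map_inv, ← map_mul, ← map_mul, f0_t0]
  have h2 : ψ (f0 h3) * ψ (c0 F) * (ψ (f0 h3))⁻¹ = (ψ (t0 F))⁻¹ := by
    rw [← map_inv, ← map_mul, ← map_mul, f0_c0, map_inv]
  obtain ⟨h4, h5⟩ := six (x := ψ (t0 F)) (y := ψ (c0 F)) (c := ψ (f0 h3)) (by rw [← map_pow, t0_cube, map_one])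
    (by rw [← map_pow, c0_cube', map_one]) h1 h2 (by
      intro h
      rw [← map_mul, ← map_mul] at h
      exact c0_t0_ne (hψ h))
  exact not_two_of_six (p := 3) (card_sylow_27 h3 e S h9) (by rw [hS]; exact ⟨_, DD_le t0_mem, rfl⟩)
    (by rw [hS]; exact ⟨_, c0_mem, rfl⟩) (by rw [← map_pow, t0_cube, map_one]) hc h4 h5 hTS hT

end Cfsg.Agent.H181.OctHerm
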